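import Mathlib
import Cfsg.Agent.H548.RowPSp
import Cfsg.Agent.S0292
import Cfsg.Agent.S0293
import Cfsg.Agent.S0294
import Cfsg.Agent.S0816
import Cfsg.Agent.S0817
import Cfsg.Agent.S0818

/-!
# `Crit` for the orthogonal groups (helper548, for S4239)
-/

set_option autoImplicit false

namespace Cfsg.Agent.H548.RowOmega

open Cfsg Cfsg.Agent.H548.Crit Cfsg.Agent.H548.LieNum Cfsg.Agent.H548.LieArith Cfsg.Agent.H548.RowPSp

universe u

theorem two_le_pow {p f : ℕ} (hp : p.Prime) (hf : 1 ≤ f) : 2 ≤ p ^ f := by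
  calc 2 ≤ p := hp.two_le
    _ = p ^ 1 := (pow_one p).symm
    _ ≤ p ^ f := Nat.pow_le_pow_right hp.pos hf

theorem gs_two (q : ℕ) : gs (q ^ 2) 2 = q ^ 2 + 1 := by
  simp [gs, Finset.sum_range_succ]; ring

theorem gs_three (q : ℕ) : gs (q ^ 2) 3 = q ^ 4 + q ^ 2 + 1 := by
  simp [gs, Finset.sum_range_succ]; ring

theorem sp_dvd' {q : ℕ} (hq : 1 ≤ q) (m : ℕ) : gs (q ^ 2) (m + 1) * gs (q ^ 2) (m + 2) ∣ sp q (m + 2) :=
  (Dvd.intro _ rfl).trans (sp_dvd hq m)

/-! ### Odd dimension -/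

theorem crit_odd_core {F : Type} [Field F] [Fintype F] {m : ℕ} (hm : 3 ≤ m) (hodd : Odd (Fintype.card F))
    [Finite (POmega F (quadFormOdd m F))] (hs : IsSimpleGroup (POmega F (quadFormOdd m F)))
    (hna : ¬ IsMulCommutative (POmega F (quadFormOdd m F))) : Crit (POmega F (quadFormOdd m F)) := by
  obtain ⟨p, f, hp, hf, hF, hch⟩ := field_data F
  have : Fact p.Prime := ⟨hp⟩
  have hL : IsLieTypeChar p (POmega F (quadFormOdd m F)) :=
    Or.inr (Or.inr (Or.inr (Or.inl ⟨F, _, _, hch, m, hm, hodd, ⟨MulEquiv.refl _⟩⟩)))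
  have hpodd : Odd p := by
    rw [hF] at hodd
    exact (Nat.odd_pow_iff (by omega)).1 hodd
  have ho := card_out_of_mulAut hs hna (Cfsg.Agent.S0816.result p f hf hF hpodd m hm)
  have hS := Cfsg.Agent.S0292.result hF (hF ▸ hodd) m hm
  change 2 * Nat.card (POmega F (quadFormOdd m F)) = (p ^ f) ^ (m ^ 2) * sp (p ^ f) m at hS
  have hp3 : 3 ≤ p := by
    have := hp.two_le
    obtain ⟨l, hl⟩ := hpodd
    omega
  have hf3 : 3 * f ≤ p ^ f := three_mul_f_le hp3 hf rfl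
  obtain ⟨q, hq⟩ : ∃ q, q = p ^ f := ⟨_, rfl⟩
  rw [← hq] at hS hf3
  have hq3 : 3 ≤ q := by omega
  have hspos := sp_pos (q := q) (by omega) m
  obtain ⟨k, rfl⟩ : ∃ k, m = k + 3 := ⟨m - 3, by omega⟩
  have hb1 : q ^ 2 + 1 ≤ gs (q ^ 2) (k + 2) := by
    rw [← gs_two]
    exact gs_mono (by omega)
  have hb2 : gs (q ^ 2) (k + 2) ≤ gs (q ^ 2) (k + 3) := gs_mono (by omega)
  have hDf : 2 * (2 * f) ≤ q ^ 2 + 1 := by nlinarith
  have hDd : 2 ∣ q ^ 2 - 1 := by
    rw [hF, ← hq] at hodd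
    have : Odd (q ^ 2) := hodd.pow
    obtain ⟨l, hl⟩ := this
    exact ⟨l, by omega⟩
  refine crit_num (N := (k + 3) ^ 2) (D := 2) (M' := sp q (k + 3)) (o := 2 * f) (a := gs (q ^ 2) (k + 2))
    (b := gs (q ^ 2) (k + 3)) hs hL hq hf hS (sp_cop (by omega) _) ho.le (gs_coprime _ _) ?_
    (hDf.trans hb1) (hDf.trans (hb1.trans hb2)) ?_ hspos
  · exact (mul_dvd_mul_left _ hDd).trans (sp_dvd (by omega) (k + 1))
  · have h1 := sp_bound (q := q) (by omega) (k + 3)
    have h3 : q ^ ((k + 3) * (k + 3 + 1)) = q ^ ((k + 3) ^ 2) * q ^ (k + 3) := by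
      rw [← pow_add]; congr 1; ring
    rw [h3] at h1
    have h4 : 3 * (2 * f) * 2 ≤ q ^ (k + 3) := by
      have h5 : q ^ 3 ≤ q ^ (k + 3) := Nat.pow_le_pow_right (by omega) (by omega)
      refine le_trans ?_ h5
      have h7 : 9 ≤ q ^ 2 := by nlinarith
      have h8 : 9 * q ≤ q ^ 3 := by
        calc 9 * q ≤ q ^ 2 * q := by gcongr
          _ = q ^ 3 := by ring
      omega
    have h6 : 3 * (2 * (2 * f) * q ^ ((k + 3) ^ 2) * 2) ≤ 3 * sp q (k + 3) := by
      refine le_trans ?_ h1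
      calc 3 * (2 * (2 * f) * q ^ ((k + 3) ^ 2) * 2) = 2 * (q ^ ((k + 3) ^ 2) * (3 * (2 * f) * 2)) := by ring
        _ ≤ _ := by gcongr
    omega

theorem crit_odd {G : Type u} [Group G] [Finite G] (hs : IsSimpleGroup G) (hna : ¬ IsMulCommutative G)
    (hG : IsPOmegaOdd G) : Crit G := by
  obtain ⟨F, _, _, m, hm, h2, ⟨e⟩⟩ := hG
  have : Finite (POmega F (quadFormOdd m F)) := Finite.of_equiv _ e.toEquiv
  exact Crit.congr e.symm (crit_odd_core hm h2 (simple_congr e hs) (comm_congr e hna))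

/-! ### Even dimension -/

/-- `4 f ≤ 2 q`, ... -/
theorem even_aux {G : Type u} [Group G] [Finite G] (hs : IsSimpleGroup G) {p f q m X D c : ℕ} (hG : IsLieTypeChar p G)
    (hq : q = p ^ f) (hf : 1 ≤ f) (hm : 4 ≤ m)
    (hS : D * Nat.card G = q ^ (m * (m - 1)) * X * sp q (m - 1)) (hX : q ^ m ≤ X + 1) (hqX : Nat.Coprime q X)
    (hDX : D ∣ X) (ho : Nat.card (Out G) = c * f) (h1 : 3 * (c * f * D) ≤ X)
    (h2 : 2 * (c * f) ≤ gs (q ^ 2) (m - 2)) : Crit G := by
  have hp := H463.LieReg.prime hG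
  have hq2 : 2 ≤ q := hq ▸ two_le_pow hp hf
  obtain ⟨k, rfl⟩ : ∃ k, m = k + 4 := ⟨m - 4, by omega⟩
  rw [show k + 4 - 1 = k + 3 by omega] at hS
  rw [show k + 4 - 2 = k + 2 by omega] at h2
  have hspos := sp_pos hq2 (k + 3)
  have hXpos : 0 < X := by
    have : 2 ≤ q ^ (k + 4) := by
      calc 2 ≤ q := hq2
        _ = q ^ 1 := (pow_one q).symm
        _ ≤ q ^ (k + 4) := Nat.pow_le_pow_right (by omega) (by omega)
    omega
  refine crit_num (N := (k + 4) * (k + 3)) (D := D) (M' := X * sp q (k + 3)) (o := c * f) (a := gs (q ^ 2) (k + 2))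
    (b := gs (q ^ 2) (k + 3)) hs hG hq hf (by rw [hS]; ring) (Nat.Coprime.mul_right hqX (sp_cop (by omega) _)) ho.le
    (gs_coprime _ _) ?_ h2 (h2.trans (gs_mono (by omega))) ?_ (Nat.mul_pos hXpos hspos)
  · rw [mul_comm]
    exact mul_dvd_mul hDX (sp_dvd' (by omega) (k + 1))
  · have h3 := sp_bound hq2 (k + 3)
    rw [show (k + 3) * (k + 3 + 1) = (k + 4) * (k + 3) by ring] at h3
    have h4 : 3 * (2 * (c * f) * q ^ ((k + 4) * (k + 3)) * D) ≤ 3 * (X * sp q (k + 3)) := by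
      calc 3 * (2 * (c * f) * q ^ ((k + 4) * (k + 3)) * D) = (3 * (c * f * D)) * (2 * q ^ ((k + 4) * (k + 3))) := by ring
        _ ≤ X * (3 * sp q (k + 3)) := Nat.mul_le_mul h1 h3
        _ = _ := by ring
    omega

theorem sixteen_le {q : ℕ} (hq : 2 ≤ q) : 8 * q ≤ gs (q ^ 2) 3 := by
  rw [gs_three]
  have h1 : 2 * q ≤ q ^ 2 := by nlinarith
  have h2 : 4 * q ^ 2 ≤ q ^ 4 := by
    calc 4 * q ^ 2 ≤ q ^ 2 * q ^ 2 := by gcongr; nlinarith
      _ = q ^ 4 := by ring
  omega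

theorem minus_abs {G : Type u} [Group G] [Finite G] (hs : IsSimpleGroup G) {p f m : ℕ} (hp : p.Prime) (hf : 1 ≤ f)
    (hL : IsLieTypeChar p G) (hm : 4 ≤ m)
    (ho : Nat.card (Out G) = (if p = 2 then 2 else (if Even (m * (p ^ f - 1) / 2) then 4 else 8)) * f)
    (hS : Nat.gcd 4 ((p ^ f) ^ m + 1) * Nat.card G = (p ^ f) ^ (m * (m - 1)) * ((p ^ f) ^ m + 1) * sp (p ^ f) (m - 1)) :
    Crit G := by
  have hf2 : 2 * f ≤ p ^ f := two_mul_f_le hp.two_le hf rfl
  have hq2 : 2 ≤ p ^ f := two_le_pow hp hf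
  obtain ⟨q, hq⟩ : ∃ q, q = p ^ f := ⟨_, rfl⟩
  rw [← hq] at hS hf2 hq2 ho
  obtain ⟨D, hD⟩ : ∃ D, D = Nat.gcd 4 (q ^ m + 1) := ⟨_, rfl⟩
  have hDX : D ∣ q ^ m + 1 := hD ▸ Nat.gcd_dvd_right _ _
  have hD4 : D ≤ 4 := Nat.le_of_dvd (by norm_num) (hD ▸ Nat.gcd_dvd_left _ _)
  rw [← hD] at hS
  have hpow : ∀ k, k ≤ m → q ^ k ≤ q ^ m := fun k hk => Nat.pow_le_pow_right (by omega) hk
  have hq4 : q ^ 4 ≤ q ^ m := hpow 4 hm
  have h44 : q ^ 4 = q ^ 3 * q := by ring
  have hmono : ∀ k, k ≤ m - 2 → gs (q ^ 2) k ≤ gs (q ^ 2) (m - 2) := fun k hk => gs_mono hk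
  by_cases hp2 : p = 2
  · rw [if_pos hp2] at ho
    have hDodd : D = 1 := by
      have h1 : Even (q ^ m) := by
        rw [hq, hp2]
        exact ((by decide : Even 2).pow_of_ne_zero (by omega)).pow_of_ne_zero (by omega)
      have h2 : Odd (q ^ m + 1) := h1.add_one
      have h3 : Nat.Coprime (2 ^ 2) (q ^ m + 1) := Nat.Coprime.pow_left 2 (Nat.coprime_two_left.2 h2)
      rw [hD]
      exact h3
    rw [hDodd] at hS
    refine even_aux hs hL hq hf hm hS (by omega) (cop_add (by omega)) (one_dvd _) ho ?_ ?_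
    · have h1 : 8 ≤ q ^ 3 := by
        calc 8 = 2 ^ 3 := by norm_num
          _ ≤ q ^ 3 := Nat.pow_le_pow_left hq2 3
      have h2 : 8 * q ≤ q ^ 4 := by rw [h44]; gcongr
      omega
    · refine le_trans ?_ (hmono 2 (by omega))
      rw [gs_two]
      have h1 : 2 * q ≤ q ^ 2 := by nlinarith
      omega
  · rw [if_neg hp2] at ho
    have hp3 : 3 ≤ p := by have := hp.two_le; omega
    have hf3 : 3 * f ≤ q := three_mul_f_le hp3 hf hq
    have hq3 : 3 ≤ q := by omega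
    have h27 : 27 ≤ q ^ 3 := by
      calc 27 = 3 ^ 3 := by norm_num
        _ ≤ q ^ 3 := Nat.pow_le_pow_left hq3 3
    have h27' : 27 * q ≤ q ^ 4 := by rw [h44]; gcongr
    rcases Nat.lt_or_ge 4 m with hm5 | hm4
    · have hcle : (if Even (m * (q - 1) / 2) then 4 else 8) ≤ 8 := by split_ifs <;> norm_num
      generalize (if Even (m * (q - 1) / 2) then 4 else 8) = c at ho hcle
      have hcf : c * f ≤ 8 * f := Nat.mul_le_mul_right _ hcle
      refine even_aux hs hL hq hf hm hS (by omega) (cop_add (by omega)) hDX ho ?_ ?_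
      · have h1 : c * f * D ≤ 8 * f * 4 := Nat.mul_le_mul hcf hD4
        have h2 : q ^ 5 ≤ q ^ m := hpow 5 hm5
        have h3 : q ^ 5 = q ^ 4 * q := by ring
        have h4 : 3 * q ^ 4 ≤ q ^ 4 * q := by rw [mul_comm]; gcongr
        omega
      · refine le_trans ?_ (hmono 3 (by omega))
        have := sixteen_le hq2
        omega
    · obtain rfl : m = 4 := by omega
      have hev : Even (4 * (q - 1) / 2) := ⟨q - 1, by omega⟩
      rw [if_pos hev] at ho
      refine even_aux hs hL hq hf hm hS (by omega) (cop_add (by omega)) hDX ho ?_ ?_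
      · have h1 : 4 * f * D ≤ 4 * f * 4 := Nat.mul_le_mul_left _ hD4
        omega
      · change _ ≤ gs (q ^ 2) 2
        rw [gs_two]
        have h1 : 3 * q ≤ q ^ 2 := by nlinarith
        omega

theorem crit_minus {G : Type u} [Group G] [Finite G] (hs : IsSimpleGroup G) (hna : ¬ IsMulCommutative G)
    (hG : IsPOmegaMinus G) : Crit G := by
  obtain ⟨F, iF, iF', m, a, b, hm, hab, ⟨e⟩⟩ := hG
  have hfin : Finite (POmega F (quadFormMinus (m - 1) F a b)) := Finite.of_equiv _ e.toEquiv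
  obtain ⟨p, f, hp, hf, hF, hch⟩ := field_data F
  have : Fact p.Prime := ⟨hp⟩
  have hL1 : IsPOmegaMinusChar p G := ⟨F, iF, iF', hch, m, a, b, hm, hab, ⟨e⟩⟩
  have hL : IsLieTypeChar p G := Or.inr (Or.inr (Or.inr (Or.inr (Or.inr (Or.inl hL1)))))
  have h1 := card_out_of_mulAut (simple_congr e hs) (comm_congr e hna)
    (Cfsg.Agent.S0818.result p f hf hF m hm a b hab)
  have h2 := Cfsg.Agent.S0294.result hF m hm a b hab
  rw [← card_out_congr e] at h1
  rw [← Nat.card_congr e.toEquiv] at h2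
  exact minus_abs hs hp hf hL hm h1 h2

/-! ### Plus type -/

theorem plus_four {G : Type u} [Group G] [Finite G] (hs : IsSimpleGroup G) {p f q D c : ℕ} (hG : IsLieTypeChar p G)
    (hq : q = p ^ f) (hf : 1 ≤ f) (hS : D * Nat.card G = q ^ 12 * ((q ^ 4 - 1) * sp q 3))
    (hDX : D ∣ (q ^ 2 - 1) ^ 4) (ho : Nat.card (Out G) = c * f) (h1 : 3 * (c * f * D) ≤ q ^ 4 - 1)
    (hD0 : 1 ≤ D) : Crit G := by
  have hp := H463.LieReg.prime hG
  have hq2 : 2 ≤ q := hq ▸ two_le_pow hp hf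
  have hspos := sp_pos hq2 3
  have h4 : 1 ≤ q ^ 2 := Nat.one_le_pow _ _ (by omega)
  have h5 : 16 ≤ q ^ 4 := by
    calc 16 = 2 ^ 4 := by norm_num
      _ ≤ q ^ 4 := Nat.pow_le_pow_left hq2 4
  have h6 : 1 ≤ q ^ 6 := Nat.one_le_pow _ _ (by omega)
  have e1 : (q ^ 4 - 1) * sp q 3 = (q ^ 4 + q ^ 2 + 1) * (q ^ 2 + 1) ^ 2 * (q ^ 2 - 1) ^ 4 := by
    have : sp q 3 = (q ^ 2 - 1) * (q ^ 4 - 1) * (q ^ 6 - 1) := by simp [sp, Finset.prod_range_succ]
    rw [this]
    have h4' : 1 ≤ q ^ 4 := by omega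
    zify [h4, h4', h6]
    ring
  have hcf : 2 * (c * f) ≤ q ^ 4 - 1 := by
    have : 2 * (c * f) * 1 ≤ 3 * (c * f) * D := Nat.mul_le_mul (by omega) hD0
    have e : 3 * (c * f) * D = 3 * (c * f * D) := by ring
    omega
  refine crit_num (N := 12) (D := D) (M' := (q ^ 4 - 1) * sp q 3) (o := c * f) (a := q ^ 4 + q ^ 2 + 1)
    (b := (q ^ 2 + 1) ^ 2) hs hG hq hf hS (Nat.Coprime.mul_right (cop_sub (by omega) (by omega)) (sp_cop (by omega) _))
    ho.le ?_ ?_ ?_ ?_ ?_ (Nat.mul_pos (by omega) hspos)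
  · apply Nat.Coprime.pow_right
    have h7 : q ^ 4 + q ^ 2 + 1 = 1 + (q ^ 2 + 1) * q ^ 2 := by ring
    rw [h7, Nat.coprime_add_mul_left_left]
    exact Nat.coprime_one_left _
  · rw [e1]
    exact mul_dvd_mul_left _ hDX
  · omega
  · have : (q ^ 2 + 1) ^ 2 = q ^ 4 + 2 * q ^ 2 + 1 := by ring
    omega
  · have h3 := sp_bound hq2 3
    have h4 : 3 * (2 * (c * f) * q ^ 12 * D) ≤ 3 * ((q ^ 4 - 1) * sp q 3) := by
      calc 3 * (2 * (c * f) * q ^ 12 * D) = (3 * (c * f * D)) * (2 * q ^ 12) := by ring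
        _ ≤ (q ^ 4 - 1) * (3 * sp q 3) := Nat.mul_le_mul h1 h3
        _ = _ := by ring
    omega

theorem plus_abs {G : Type u} [Group G] [Finite G] (hs : IsSimpleGroup G) {p f m : ℕ} (hp : p.Prime) (hf : 1 ≤ f)
    (hL : IsLieTypeChar p G) (hm : 4 ≤ m)
    (ho : Nat.card (Out G) = (if m = 4 then 3 else 1) *
      (if p = 2 then 2 else (if Even (m * (p ^ f - 1) / 2) then 8 else 4)) * f)
    (hS : Nat.gcd 4 ((p ^ f) ^ m - 1) * Nat.card G = (p ^ f) ^ (m * (m - 1)) * ((p ^ f) ^ m - 1) * sp (p ^ f) (m - 1)) :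
    Crit G := by
  have hf2 : 2 * f ≤ p ^ f := two_mul_f_le hp.two_le hf rfl
  have hq2 : 2 ≤ p ^ f := two_le_pow hp hf
  obtain ⟨q, hq⟩ : ∃ q, q = p ^ f := ⟨_, rfl⟩
  rw [← hq] at hS hf2 hq2 ho
  obtain ⟨D, hD⟩ : ∃ D, D = Nat.gcd 4 (q ^ m - 1) := ⟨_, rfl⟩
  have hDX : D ∣ q ^ m - 1 := hD ▸ Nat.gcd_dvd_right _ _
  have hD4 : D ≤ 4 := Nat.le_of_dvd (by norm_num) (hD ▸ Nat.gcd_dvd_left _ _)
  rw [← hD] at hS
  have hpow : ∀ k, k ≤ m → q ^ k ≤ q ^ m := fun k hk => Nat.pow_le_pow_right (by omega) hk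
  have hq4 : q ^ 4 ≤ q ^ m := hpow 4 hm
  have h44 : q ^ 4 = q ^ 3 * q := by ring
  have hmono : ∀ k, k ≤ m - 2 → gs (q ^ 2) k ≤ gs (q ^ 2) (m - 2) := fun k hk => gs_mono hk
  have hqm : 1 ≤ q ^ m := Nat.one_le_pow _ _ (by omega)
  have h8 : 8 ≤ q ^ 3 := by
    calc 8 = 2 ^ 3 := by norm_num
      _ ≤ q ^ 3 := Nat.pow_le_pow_left hq2 3
  have h8' : 8 * q ≤ q ^ 4 := by rw [h44]; gcongr
  have hDodd : p = 2 → D = 1 := by
    intro hp2
    have h1 : Even (q ^ m) := by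
      rw [hq, hp2]
      exact ((by decide : Even 2).pow_of_ne_zero (by omega)).pow_of_ne_zero (by omega)
    have h2 : Odd (q ^ m - 1) := Nat.Even.sub_odd hqm h1 odd_one
    have h3 : Nat.Coprime (2 ^ 2) (q ^ m - 1) := Nat.Coprime.pow_left 2 (Nat.coprime_two_left.2 h2)
    rw [hD]
    exact h3
  rcases Nat.lt_or_ge 4 m with hm5 | hm4
  · rw [if_neg (by omega), one_mul] at ho
    by_cases hp2 : p = 2
    · rw [if_pos hp2] at ho
      rw [hDodd hp2] at hS
      refine even_aux hs hL hq hf hm hS (by omega) (cop_sub (by omega) (by omega)) (one_dvd _) ho ?_ ?_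
      · omega
      · refine le_trans ?_ (hmono 3 (by omega))
        have := sixteen_le hq2
        omega
    · rw [if_neg hp2] at ho
      have hp3 : 3 ≤ p := by have := hp.two_le; omega
      have hf3 : 3 * f ≤ q := three_mul_f_le hp3 hf hq
      have hq3 : 3 ≤ q := by omega
      have h27 : 27 ≤ q ^ 3 := by
        calc 27 = 3 ^ 3 := by norm_num
          _ ≤ q ^ 3 := Nat.pow_le_pow_left hq3 3
      have h27' : 27 * q ≤ q ^ 4 := by rw [h44]; gcongr
      have hcle : (if Even (m * (q - 1) / 2) then 8 else 4) ≤ 8 := by split_ifs <;> norm_num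
      generalize (if Even (m * (q - 1) / 2) then 8 else 4) = c at ho hcle
      have hcf : c * f ≤ 8 * f := Nat.mul_le_mul_right _ hcle
      refine even_aux hs hL hq hf hm hS (by omega) (cop_sub (by omega) (by omega)) hDX ho ?_ ?_
      · have h1 : c * f * D ≤ 8 * f * 4 := Nat.mul_le_mul hcf hD4
        have h2 : q ^ 5 ≤ q ^ m := hpow 5 hm5
        have h3 : q ^ 5 = q ^ 4 * q := by ring
        have h4 : 3 * q ^ 4 ≤ q ^ 4 * q := by rw [mul_comm]; gcongr
        omega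
      · refine le_trans ?_ (hmono 3 (by omega))
        have := sixteen_le hq2
        omega
  · obtain rfl : m = 4 := by omega
    rw [if_pos rfl] at ho
    have hS' : D * Nat.card G = q ^ 12 * ((q ^ 4 - 1) * sp q 3) := by
      rw [hS]; norm_num [mul_assoc]
    have e1 : sp q 3 = (q ^ 2 - 1) * (q ^ 4 - 1) * (q ^ 6 - 1) := by simp [sp, Finset.prod_range_succ]
    by_cases hp2 : p = 2
    · rw [if_pos hp2] at ho
      rw [hDodd hp2, one_mul] at hS'
      by_cases hf1 : f = 1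
      · -- `O8+(2)`
        have hq2' : q = 2 := by rw [hq, hp2, hf1, pow_one]
        rw [e1, hq2'] at hS'
        norm_num at hS'
        rw [hf1] at ho
        obtain ⟨x, hx⟩ := exists_reg (N := 12) (M := 42525) hs hL (by rw [hS', hp2]; norm_num) (by rw [hp2]; norm_num)
        rw [hp2] at hx
        refine crit_expl x hS' (by norm_num) ho hx [(2, 12, 1), (3, 5, 1), (5, 2, 0), (7, 1, 0)] (by norm_num) ?_
          (by norm_num)
        intro t ht
        simp only [List.mem_cons, List.not_mem_nil, or_false] at ht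
        rcases ht with rfl | rfl | rfl | rfl <;> norm_num
      · have hq4' : 4 ≤ q := by
          have hf2' : 2 ≤ f := by omega
          calc 4 = 2 ^ 2 := by norm_num
            _ ≤ 2 ^ f := Nat.pow_le_pow_right (by norm_num) hf2'
            _ = q := by rw [hq, hp2]
        have h64 : 64 ≤ q ^ 3 := by
          calc 64 = 4 ^ 3 := by norm_num
            _ ≤ q ^ 3 := Nat.pow_le_pow_left hq4' 3
        have h64' : 64 * q ≤ q ^ 4 := by rw [h44]; gcongr
        refine plus_four (D := 1) hs hL hq hf (by rw [one_mul]; exact hS') (one_dvd _) ho ?_ le_rfl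
        omega
    · rw [if_neg hp2] at ho
      have hev : Even (4 * (q - 1) / 2) := ⟨q - 1, by omega⟩
      rw [if_pos hev] at ho
      have hp3 : 3 ≤ p := by have := hp.two_le; omega
      have hf3 : 3 * f ≤ q := three_mul_f_le hp3 hf hq
      have hpo : Odd p := (hp.eq_two_or_odd').resolve_left hp2
      have hqo : Odd q := by rw [hq]; exact hpo.pow
      rcases Nat.lt_or_ge q 5 with hq5 | hq5
      · -- `O8+(3)`
        have hq3' : q = 3 := by
          obtain ⟨l, hl⟩ := hqo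
          omega
        have hf1 : f = 1 := by omega
        have hp3' : p = 3 := by rw [hf1, pow_one] at hq; omega
        have hDval : D = 4 := by rw [hD, hq3']; norm_num
        rw [e1, hDval, hq3'] at hS'
        have hcard : Nat.card G = 4952179814400 := by
          norm_num at hS'
          omega
        rw [hf1] at ho
        obtain ⟨x, hx⟩ := exists_reg (N := 12) (M := 9318400) hs hL (by rw [hcard, hp3']; norm_num)
          (by rw [hp3']; norm_num)
        rw [hp3'] at hx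
        refine crit_expl x hcard (by norm_num) ho hx [(2, 12, 3), (3, 12, 1), (5, 2, 0), (7, 1, 0), (13, 1, 0)]
          (by norm_num) ?_ (by norm_num)
        intro t ht
        simp only [List.mem_cons, List.not_mem_nil, or_false] at ht
        rcases ht with rfl | rfl | rfl | rfl | rfl <;> norm_num
      · have h125 : 125 ≤ q ^ 3 := by
          calc 125 = 5 ^ 3 := by norm_num
            _ ≤ q ^ 3 := Nat.pow_le_pow_left hq5 3
        have h125' : 125 * q ≤ q ^ 4 := by rw [h44]; gcongr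
        have hD1 : 1 ≤ D := by
          rw [hD]
          exact Nat.gcd_pos_of_pos_left _ (by norm_num)
        refine plus_four (D := D) hs hL hq hf hS' ?_ ho ?_ hD1
        · have h1 : Even (q ^ 2 - 1) := Nat.Odd.sub_odd (hqo.pow) odd_one
          have h2 : 4 ∣ (q ^ 2 - 1) ^ 4 := by
            obtain ⟨l, hl⟩ := h1
            exact ⟨4 * l ^ 4, by rw [hl]; ring⟩
          exact (hD ▸ Nat.gcd_dvd_left _ _ : D ∣ 4).trans h2
        · have h1 : 3 * 8 * f * D ≤ 3 * 8 * f * 4 := Nat.mul_le_mul_left _ hD4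
          omega

theorem crit_plus {G : Type u} [Group G] [Finite G] (hs : IsSimpleGroup G) (hna : ¬ IsMulCommutative G)
    (hG : IsPOmegaPlus G) : Crit G := by
  obtain ⟨F, iF, iF', m, hm, ⟨e⟩⟩ := hG
  have hfin : Finite (POmega F (quadFormPlus m F)) := Finite.of_equiv _ e.toEquiv
  obtain ⟨p, f, hp, hf, hF, hch⟩ := field_data F
  have : Fact p.Prime := ⟨hp⟩
  have hL1 : IsPOmegaPlusChar p G := ⟨F, iF, iF', hch, m, hm, ⟨e⟩⟩
  have hL : IsLieTypeChar p G := Or.inr (Or.inr (Or.inr (Or.inr (Or.inl hL1))))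
  have h1 := card_out_of_mulAut (simple_congr e hs) (comm_congr e hna) (Cfsg.Agent.S0817.result p f hf hF m hm)
  have h2 := Cfsg.Agent.S0293.result hF m hm
  rw [← card_out_congr e] at h1
  rw [← Nat.card_congr e.toEquiv] at h2
  exact plus_abs hs hp hf hL hm h1 h2

end Cfsg.Agent.H548.RowOmega
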