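import Mathlib
import Cfsg.Agent.H548.Crit
import Cfsg.Agent.H548.CosetGrp

/-!
# Groups with a centralizer-free socle of simple groups (helper548, for S4239)

`soc_main` : if the simple factors `S i` of the socle of `G` satisfy `Crit` and `C_G(soc) = 1` then some `x` satisfies
`2 |C_G(x)| |P| ≤ |G|`.
-/

set_option autoImplicit false

namespace Cfsg.Agent.H548.Soc

open Subgroup Cfsg.Agent.H548.Crit Cfsg.Agent.H548.PCoset Cfsg.Agent.H548.PMod Cfsg.Agent.H548.PBound

universe u

/-- Arithmetic: `p`-subgroups of the symmetric group. -/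
theorem card_pgroup_perm_le {ι : Type*} [Fintype ι] [Nonempty ι] {p : ℕ} [hF : Fact p.Prime]
    (Q : Subgroup (Equiv.Perm ι)) (hQ : IsPGroup p Q) : Nat.card Q ≤ 2 ^ (Fintype.card ι - 1) := by
  classical
  obtain ⟨v, hv⟩ := hQ.exists_card_eq
  have h1 : Nat.card Q ∣ (Fintype.card ι).factorial := by
    have := Subgroup.card_subgroup_dvd_card Q
    rwa [Nat.card_eq_fintype_card (α := Equiv.Perm ι), Fintype.card_perm] at this
  rw [hv] at h1
  have h2 : v ≤ padicValNat p (Fintype.card ι).factorial :=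
    (padicValNat_dvd_iff_le (Nat.factorial_ne_zero _)).1 h1
  have h3 := sub_one_mul_padicValNat_factorial_lt_of_ne_zero (p := p) (n := Fintype.card ι) Fintype.card_ne_zero
  have h4 : p ≤ 2 ^ (p - 1) := by
    have := (p - 1).lt_two_pow_self
    omega
  rw [hv]
  calc p ^ v ≤ (2 ^ (p - 1)) ^ v := Nat.pow_le_pow_left h4 v
    _ = 2 ^ ((p - 1) * v) := by rw [pow_mul]
    _ ≤ 2 ^ (Fintype.card ι - 1) := by
      apply Nat.pow_le_pow_right (by norm_num)
      have : (p - 1) * v ≤ (p - 1) * padicValNat p (Fintype.card ι).factorial := Nat.mul_le_mul_left _ h2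
      omega

/-- The socle data. -/
structure Soc {G : Type u} [Group G] {ι : Type*} (S : ι → Subgroup G) : Prop where
  comm : ∀ i j, i ≠ j → ∀ x ∈ S i, ∀ y ∈ S j, x * y = y * x
  ctr : ∀ i, ∀ x ∈ S i, (∀ y ∈ S i, x * y = y * x) → x = 1
  inj : Function.Injective S
  conj : ∀ (g : G) i, ∃ j, (S i).map (MulAut.conj g).toMonoidHom = S j
  cent : ∀ g : G, (∀ i, ∀ x ∈ S i, g * x = x * g) → g = 1
  crit : ∀ i, Crit (S i)

namespace Soc

variable {G : Type u} [Group G] {ι : Type*} {S : ι → Subgroup G} (h : Soc S)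
include h

theorem pw : Pairwise fun i j : ι => ∀ x y : G, x ∈ S i → y ∈ S j → Commute x y :=
  fun i j hij x y hx hy => h.comm i j hij x hx y hy

variable [Fintype ι]

/-- The product map. -/
noncomputable def phi : (∀ i, S i) →* G := Subgroup.noncommPiCoprod h.pw

theorem phi_conj (f : ∀ i, S i) (i : ι) (y : S i) :
    h.phi f * y * (h.phi f)⁻¹ = (f i : G) * y * (f i : G)⁻¹ := by
  classical
  have h1 : h.phi (Pi.mulSingle i y) = y := Subgroup.noncommPiCoprod_mulSingle _ _
  have h2 : h.phi (Pi.mulSingle i (f i * y * (f i)⁻¹)) = ((f i * y * (f i)⁻¹ : S i) : G) :=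
    Subgroup.noncommPiCoprod_mulSingle _ _
  have h3 : f * Pi.mulSingle i y * f⁻¹ = Pi.mulSingle i (f i * y * (f i)⁻¹) := by
    funext j
    by_cases hj : j = i
    · subst hj
      simp
    · simp [Pi.mulSingle_eq_of_ne hj]
  calc h.phi f * y * (h.phi f)⁻¹ = h.phi (f * Pi.mulSingle i y * f⁻¹) := by rw [map_mul, map_mul, map_inv, h1]
    _ = _ := by rw [h3, h2]; rfl

theorem phi_inj : Function.Injective h.phi := by
  rw [injective_iff_map_eq_one]
  intro f hf
  funext i
  apply Subtype.ext
  refine h.ctr i _ (f i).2 fun y hy => ?_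
  have h1 := h.phi_conj f i ⟨y, hy⟩
  rw [hf] at h1
  have h2 : y = (f i : G) * y * (f i : G)⁻¹ := by simpa using h1
  exact (eq_mul_inv_iff_mul_eq.1 h2).symm

theorem phi_range : h.phi.range = ⨆ i, S i := Subgroup.noncommPiCoprod_range

theorem card_sup [Finite G] : Nat.card (⨆ i, S i : Subgroup G) = ∏ i, Nat.card (S i) := by
  rw [← h.phi_range, ← Nat.card_pi]
  exact (Nat.card_congr (MonoidHom.ofInjective h.phi_inj).toEquiv).symm

/-- An element normalizing all factors and centralizing `phi x` centralizes all `x i`. -/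
theorem fix_of_comm (x : ∀ i, S i) {g : G} (hg : ∀ i, g ∈ normalizer (S i : Set G))
    (hc : g * h.phi x = h.phi x * g) (i : ι) : g * (x i : G) = (x i : G) * g := by
  have hmem : g * (x i : G) * g⁻¹ ∈ S i := (mem_normalizer_iff.1 (hg i) _).1 (x i).2
  have key : (x i : G)⁻¹ * (g * (x i : G) * g⁻¹) = 1 := by
    refine h.ctr i _ ((S i).mul_mem ((S i).inv_mem (x i).2) hmem) fun y hy => ?_
    have hy' : g⁻¹ * y * g ∈ S i := by
      have := (mem_normalizer_iff.1 (inv_mem (hg i)) y).1 hy
      rwa [inv_inv] at this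
    have h1 := h.phi_conj x i ⟨_, hy'⟩
    have h2 := h.phi_conj x i ⟨y, hy⟩
    change h.phi x * (g⁻¹ * y * g) * (h.phi x)⁻¹ = (x i : G) * (g⁻¹ * y * g) * (x i : G)⁻¹ at h1
    change h.phi x * y * (h.phi x)⁻¹ = (x i : G) * y * (x i : G)⁻¹ at h2
    have h3 : g * (h.phi x * (g⁻¹ * y * g) * (h.phi x)⁻¹) * g⁻¹ = h.phi x * y * (h.phi x)⁻¹ := by
      calc g * (h.phi x * (g⁻¹ * y * g) * (h.phi x)⁻¹) * g⁻¹ = (g * h.phi x) * g⁻¹ * y * ((g * h.phi x) * g⁻¹)⁻¹ := by
            group
        _ = (h.phi x * g) * g⁻¹ * y * ((h.phi x * g) * g⁻¹)⁻¹ := by rw [hc]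
        _ = _ := by group
    rw [h1, h2] at h3
    -- `g x g⁻¹` and `x` act in the same way
    calc (x i : G)⁻¹ * (g * (x i : G) * g⁻¹) * y
        = (x i : G)⁻¹ * (g * ((x i : G) * (g⁻¹ * y * g) * (x i : G)⁻¹) * g⁻¹) * (g * (x i : G) * g⁻¹) := by group
      _ = (x i : G)⁻¹ * ((x i : G) * y * (x i : G)⁻¹) * (g * (x i : G) * g⁻¹) := by rw [h3]
      _ = _ := by group
  have h4 : (x i : G) = g * (x i : G) * g⁻¹ := inv_mul_eq_one.1 key
  exact (eq_mul_inv_iff_mul_eq.1 h4).symm

/-- The permutation representation on the factors. -/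
theorem exists_perm : ∃ π : G →* Equiv.Perm ι, ∀ g, π g = 1 ↔ ∀ i, g ∈ normalizer (S i : Set G) := by
  classical
  choose σ hσ using h.conj
  have hone : ∀ i, σ 1 i = i := by
    intro i
    apply h.inj
    rw [← hσ]
    ext x
    rw [Subgroup.mem_map]
    constructor
    · rintro ⟨y, hy, rfl⟩
      simpa using hy
    · intro hx
      exact ⟨x, hx, by simp⟩
  have hmul : ∀ a b i, σ (a * b) i = σ a (σ b i) := by
    intro a b i
    apply h.inj
    rw [← hσ, ← hσ, ← hσ, Subgroup.map_map]
    congr 1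
    ext x
    simp [mul_assoc]
  letI : MulAction G ι :=
    { smul := fun g i => σ g i
      one_smul := hone
      mul_smul := hmul }
  refine ⟨MulAction.toPermHom G ι, fun g => ⟨fun hg i => ?_, fun hg => ?_⟩⟩
  swap
  · refine Equiv.ext fun i => ?_
    change σ g i = i
    apply h.inj
    rw [← hσ]
    ext x
    rw [Subgroup.mem_map]
    constructor
    · rintro ⟨y, hy, rfl⟩
      exact (mem_normalizer_iff.1 (hg i) y).1 hy
    · intro hx
      refine ⟨g⁻¹ * x * g, ?_, ?_⟩
      · have := (mem_normalizer_iff.1 (inv_mem (hg i)) x).1 hx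
        rwa [inv_inv] at this
      · change g * (g⁻¹ * x * g) * g⁻¹ = x
        group
  have h1 : σ g i = i := by
    have := congrArg (fun e : Equiv.Perm ι => e i) hg
    exact this
  have h2 := hσ g i
  rw [h1] at h2
  rw [mem_normalizer_iff]
  intro x
  constructor
  · intro hx
    have : g * x * g⁻¹ ∈ (S i).map (MulAut.conj g).toMonoidHom := ⟨x, hx, rfl⟩
    rwa [h2] at this
  · intro hx
    have h3 : g * x * g⁻¹ ∈ (S i).map (MulAut.conj g).toMonoidHom := by rwa [h2]
    obtain ⟨y, hy, hyx⟩ := h3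
    have h4 : g * y * g⁻¹ = g * x * g⁻¹ := hyx
    have h5 : y = x := mul_left_cancel (mul_right_cancel h4)
    rwa [← h5]

end Soc

section bound

variable {G : Type u} [Group G] [Finite G] {p : ℕ} [hF : Fact p.Prime]

theorem card_le_ordProj {H : Type*} [Group H] {n : ℕ} (hn : n ≠ 0) (hH : IsPGroup p H) [Finite H]
    (hd : Nat.card H ∣ n) : Nat.card H ≤ ordProj[p] n := by
  obtain ⟨k, hk⟩ := hH.exists_card_eq
  rw [hk] at hd ⊢
  exact Nat.pow_le_pow_right hF.out.pos ((hF.out.pow_dvd_iff_le_factorization hn).1 hd)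

theorem card_image_le (S D P E : Subgroup G) (hDn : D ≤ normalizer (S : Set G)) (hP : IsPGroup p P)
    (hEi : ∀ e ∈ E, ∃ s ∈ S, ∀ y ∈ S, e * y * e⁻¹ = s * y * s⁻¹) (hEn : E ≤ normalizer (S : Set G)) [E.Normal]
    (hDL : D ≤ E ⊔ P) (x : S) (hx : ∀ d ∈ D, d * x = x * d) :
    Nat.card ((S.normalizerMonoidHom.comp (inclusion hDn)).range) ≤
      ordProj[p] (Nat.card (Cfsg.Out S)) * Nat.card (centralizer ({x} : Set S)) := by
  have hfin := finite_out (S := S)
  set f : D →* MulAut S := S.normalizerMonoidHom.comp (inclusion hDn) with hf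
  have happ : ∀ (g : normalizer (S : Set G)) (y : S), ((S.normalizerMonoidHom g y : S) : G) = g * y * (g : G)⁻¹ :=
    fun _ _ => rfl
  let q : MulAut S →* Cfsg.Out S := QuotientGroup.mk' (Cfsg.Inn S)
  have hfinM : Finite (MulAut S) := Finite.of_injective (fun α : MulAut S => (α : S → S)) fun α β h =>
    MulEquiv.ext fun x => congrFun h x
  rw [card_eq_map_mul q f.range]
  refine Nat.mul_le_mul ?_ ?_
  · -- the outer part
    have hp : IsPGroup p (f.range.map q) := by
      rintro ⟨_, _, ⟨d, rfl⟩, rfl⟩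
      obtain ⟨e, he, y, hy, hey⟩ := (mem_sup_of_normal_left).1 (hDL d.2)
      have hyn : y ∈ normalizer (S : Set G) := by
        have : y = e⁻¹ * d := by rw [← hey]; group
        rw [this]
        exact mul_mem (inv_mem (hEn he)) (hDn d.2)
      obtain ⟨n, hn⟩ := hP ⟨y, hy⟩
      have hn' : y ^ p ^ n = 1 := congrArg Subtype.val hn
      refine ⟨n, Subtype.ext ?_⟩
      change (q (f d)) ^ p ^ n = 1
      have h1 : f d = S.normalizerMonoidHom ⟨e, hEn he⟩ * S.normalizerMonoidHom ⟨y, hyn⟩ := by
        rw [← map_mul]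
        change S.normalizerMonoidHom (inclusion hDn d) = _
        congr 1
        exact Subtype.ext hey.symm
      have h2 : q (S.normalizerMonoidHom ⟨e, hEn he⟩) = 1 := by
        obtain ⟨s, hs, hse⟩ := hEi e he
        refine (QuotientGroup.eq_one_iff _).2 ⟨⟨s, hs⟩, ?_⟩
        refine MulEquiv.ext fun y => Subtype.ext ?_
        rw [happ]
        exact (hse y y.2).symm
      rw [h1, map_mul, h2, one_mul, ← map_pow, ← map_pow]
      have h3 : (⟨y, hyn⟩ : normalizer (S : Set G)) ^ p ^ n = 1 := Subtype.ext hn'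
      rw [h3, map_one, map_one]
    exact card_le_ordProj (card_out_pos (S := S)).ne' hp (Subgroup.card_subgroup_dvd_card _)
  · -- the inner part
    have hex : ∀ a : (f.range ⊓ q.ker : Subgroup (MulAut S)), ∃ s : S, MulAut.conj s = (a : MulAut S) := by
      rintro ⟨a, ha1, ha2⟩
      have h1 : a ∈ Cfsg.Inn S := by
        have h2 : q a = 1 := ha2
        exact (QuotientGroup.eq_one_iff _).1 h2
      exact h1
    choose s hs using hex
    refine Nat.card_le_card_of_injective
      (fun a : (f.range ⊓ q.ker : Subgroup (MulAut S)) => (⟨s a, ?_⟩ : centralizer ({x} : Set S))) ?_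
    · rw [mem_centralizer_singleton_iff]
      obtain ⟨d, hd⟩ := a.2.1
      have h1 : (MulAut.conj (s a)) x = x := by
        rw [hs a, ← hd]
        apply Subtype.ext
        have h2 := hx d d.2
        change ((S.normalizerMonoidHom (inclusion hDn d) x : S) : G) = x
        rw [happ]
        change (d : G) * x * (d : G)⁻¹ = x
        rw [h2]
        group
      rw [MulAut.conj_apply] at h1
      exact mul_inv_eq_iff_eq_mul.1 h1
    · intro a b hab
      have h1 : s a = s b := congrArg (fun t : centralizer ({x} : Set S) => (t : S)) hab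
      apply Subtype.ext
      rw [← hs a, ← hs b, h1]

end bound

namespace Soc

variable {G : Type u} [Group G] {ι : Type*} {S : ι → Subgroup G} (h : Soc S)
include h

theorem sup_normal : (⨆ i, S i).Normal := by
  constructor
  intro n hn g
  have h1 : (⨆ i, S i).map (MulAut.conj g).toMonoidHom ≤ ⨆ i, S i := by
    rw [Subgroup.map_iSup]
    refine iSup_le fun i => ?_
    obtain ⟨j, hj⟩ := h.conj g i
    rw [hj]
    exact le_iSup S j
  exact h1 ⟨n, hn, rfl⟩

variable [Fintype ι]

theorem sup_inner (i : ι) : ∀ e ∈ (⨆ i, S i), ∃ s ∈ S i, ∀ y ∈ S i, e * y * e⁻¹ = s * y * s⁻¹ := by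
  intro e he
  rw [← h.phi_range] at he
  obtain ⟨f, rfl⟩ := he
  exact ⟨f i, (f i).2, fun y hy => h.phi_conj f i ⟨y, hy⟩⟩

theorem sup_le_normalizer (i : ι) : (⨆ i, S i) ≤ normalizer (S i : Set G) := by
  have key : ∀ e ∈ (⨆ i, S i), ∀ y ∈ S i, e * y * e⁻¹ ∈ S i := by
    intro e he y hy
    obtain ⟨s, hs, hse⟩ := h.sup_inner i e he
    rw [hse y hy]
    exact (S i).mul_mem ((S i).mul_mem hs hy) ((S i).inv_mem hs)
  intro e he
  rw [mem_normalizer_iff]
  intro y
  refine ⟨key e he y, fun hy => ?_⟩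
  have h1 := key e⁻¹ (inv_mem he) _ hy
  have h2 : e⁻¹ * (e * y * e⁻¹) * e⁻¹⁻¹ = y := by group
  rwa [h2] at h1

/-- **The case of a trivial Fitting subgroup.** -/
theorem main [Finite G] [Nonempty ι] {p : ℕ} [hF : Fact p.Prime] (P : Sylow p G) :
    ∃ x : G, 2 * Nat.card (centralizer ({x} : Set G)) * Nat.card P ≤ Nat.card G := by
  classical
  have hEnorm := h.sup_normal
  set E : Subgroup G := ⨆ i, S i with hE
  choose x hx using h.crit
  set X : G := h.phi x with hX
  obtain ⟨π, hπ⟩ := h.exists_perm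
  set L : Subgroup G := E ⊔ (P : Subgroup G) with hL
  set C : Subgroup G := centralizer {X} ⊓ L with hC
  have hcC := card_eq_map_mul π C
  have hEker : E ≤ π.ker := fun e he => MonoidHom.mem_ker.2 ((hπ e).2 fun i => h.sup_le_normalizer i he)
  have hm1 : Nat.card (C.map π) ≤ 2 ^ (Fintype.card ι - 1) := by
    apply card_pgroup_perm_le (p := p)
    have h1 : C.map π ≤ (P : Subgroup G).map π := by
      have h2 : L.map π = (P : Subgroup G).map π := by
        rw [hL, Subgroup.map_sup, (Subgroup.map_eq_bot_iff E).2 hEker, bot_sup_eq]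
      rw [← h2]
      exact Subgroup.map_mono inf_le_right
    exact (P.isPGroup'.map π).to_le h1
  set D : Subgroup G := C ⊓ π.ker with hD
  have hDn : ∀ i, D ≤ normalizer (S i : Set G) := fun i d hd => (hπ d).1 (MonoidHom.mem_ker.1 hd.2) i
  have hDx : ∀ i, ∀ d ∈ D, d * (x i : G) = (x i : G) * d := by
    intro i d hd
    exact h.fix_of_comm x (fun i => hDn i hd) (mem_centralizer_singleton_iff.1 hd.1.1) i
  have hDL : D ≤ E ⊔ (P : Subgroup G) := inf_le_left.trans inf_le_right
  have hDcard : Nat.card D ≤ ∏ i, (ordProj[p] (Nat.card (Cfsg.Out (S i))) *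
      Nat.card (centralizer ({x i} : Set (S i)))) := by
    have h1 : Nat.card D ≤ Nat.card (∀ i, ((S i).normalizerMonoidHom.comp (inclusion (hDn i))).range) := by
      have hfinM : ∀ i, Finite (MulAut (S i)) := fun i =>
        Finite.of_injective (fun α : MulAut (S i) => (α : S i → S i)) fun α β h =>
          MulEquiv.ext fun x => congrFun h x
      refine Nat.card_le_card_of_injective
        (fun d : D => fun i => (⟨((S i).normalizerMonoidHom.comp (inclusion (hDn i))) d, ⟨d, rfl⟩⟩ :
          ((S i).normalizerMonoidHom.comp (inclusion (hDn i))).range)) ?_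
      intro a b hab
      apply Subtype.ext
      have h2 : (a : G)⁻¹ * b = 1 := by
        apply h.cent
        intro i y hy
        have h3 : ((S i).normalizerMonoidHom.comp (inclusion (hDn i))) a =
            ((S i).normalizerMonoidHom.comp (inclusion (hDn i))) b :=
          congrArg Subtype.val (congrFun hab i)
        have h4 : (a : G) * y * (a : G)⁻¹ = (b : G) * y * (b : G)⁻¹ := by
          have := congrArg (fun e : MulAut (S i) => ((e ⟨y, hy⟩ : S i) : G)) h3
          exact this
        calc (a : G)⁻¹ * b * y = (a : G)⁻¹ * (b * y * (b : G)⁻¹) * b := by group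
          _ = (a : G)⁻¹ * (a * y * (a : G)⁻¹) * b := by rw [h4]
          _ = _ := by group
      exact inv_mul_eq_one.1 h2
    rw [Nat.card_pi] at h1
    refine h1.trans (Finset.prod_le_prod' fun i _ => ?_)
    exact card_image_le (p := p) (S i) D P E (hDn i) P.isPGroup' (h.sup_inner i) (h.sup_le_normalizer i) hDL (x i)
      (hDx i)
  have hEcard : Nat.card E = ∏ i, Nat.card (S i) := h.card_sup
  have hEP : Nat.card (E ⊓ (P : Subgroup G) : Subgroup G) ≤ ∏ i, ordProj[p] (Nat.card (S i)) := by
    have h1 : Nat.card (E ⊓ (P : Subgroup G) : Subgroup G) ≤ ordProj[p] (Nat.card E) :=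
      card_le_ordProj Nat.card_pos.ne' (P.isPGroup'.to_le inf_le_right) (Subgroup.card_dvd_of_le inf_le_left)
    rw [hEcard] at h1
    refine h1.trans (le_of_eq ?_)
    rw [Nat.factorization_prod fun i _ => Nat.card_pos.ne', Finsupp.finset_sum_apply, Finset.prod_pow_eq_pow_sum]
  have hmain : 2 * Nat.card C * Nat.card (E ⊓ (P : Subgroup G) : Subgroup G) ≤ Nat.card E := by
    have hpos : 0 < Fintype.card ι := Fintype.card_pos
    calc 2 * Nat.card C * Nat.card (E ⊓ (P : Subgroup G) : Subgroup G)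
        ≤ 2 * (2 ^ (Fintype.card ι - 1) * ∏ i, (ordProj[p] (Nat.card (Cfsg.Out (S i))) *
            Nat.card (centralizer ({x i} : Set (S i))))) * ∏ i, ordProj[p] (Nat.card (S i)) := by
          rw [hcC]
          gcongr
      _ = ∏ i : ι, (2 * ordProj[p] (Nat.card (Cfsg.Out (S i))) * ordProj[p] (Nat.card (S i)) *
            Nat.card (centralizer ({x i} : Set (S i)))) := by
          rw [Finset.prod_mul_distrib, Finset.prod_mul_distrib, Finset.prod_mul_distrib, Finset.prod_mul_distrib,
            Finset.prod_const, Finset.card_univ]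
          have : 2 ^ Fintype.card ι = 2 * 2 ^ (Fintype.card ι - 1) := by
            rw [← pow_succ']
            congr 1
            omega
          rw [this]
          ring
      _ ≤ ∏ i, Nat.card (S i) := Finset.prod_le_prod' fun i _ => hx i p hF.out
      _ = Nat.card E := hEcard.symm
  refine ⟨X, ?_⟩
  have h1 := card_stab_le_index L (centralizer {X})
  have h2 := card_mul_card_le (le_sup_left : E ≤ L) (le_sup_right : (P : Subgroup G) ≤ L)
  have h3 : Nat.card L * L.index = Nat.card G := L.card_mul_index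
  have hpos : 0 < Nat.card (E ⊓ (P : Subgroup G) : Subgroup G) := Nat.card_pos
  refine Nat.le_of_mul_le_mul_right ?_ hpos
  calc 2 * Nat.card (centralizer ({X} : Set G)) * Nat.card P * Nat.card (E ⊓ (P : Subgroup G) : Subgroup G)
      ≤ 2 * (L.index * Nat.card C) * Nat.card P * Nat.card (E ⊓ (P : Subgroup G) : Subgroup G) := by gcongr
    _ = L.index * (2 * Nat.card C * Nat.card (E ⊓ (P : Subgroup G) : Subgroup G)) * Nat.card P := by ring
    _ ≤ L.index * Nat.card E * Nat.card P := by gcongr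
    _ = L.index * (Nat.card E * Nat.card P) := by ring
    _ ≤ L.index * (Nat.card L * Nat.card (E ⊓ (P : Subgroup G) : Subgroup G)) := Nat.mul_le_mul_left _ h2
    _ = _ := by rw [← h3]; ring

end Soc

end Cfsg.Agent.H548.Soc
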