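import Mathlib
import Cfsg.Agent.H548.WMain
import Cfsg.Agent.H576.Kazarin

/-!
# Strictness (helper548, for S4239)

If `O_p(G) = 1 ≠ P` then some conjugacy class has more than `|P|` elements.
-/

set_option autoImplicit false

namespace Cfsg.Agent.H548.Strict

open Subgroup Cfsg Cfsg.Agent.H548.Crit Cfsg.Agent.H548.PCoset Cfsg.Agent.H548.PMod Cfsg.Agent.H548.PBound
  Cfsg.Agent.H548.PDich Cfsg.Agent.H548.CosetGrp Cfsg.Agent.H548.CosetMod

universe u

variable {G : Type u} [Group G] [Finite G] {p : ℕ} [hF : Fact p.Prime]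

/-- A normal subgroup of order prime to a subgroup index is contained in the subgroup. -/
theorem le_of_coprime_index (F C : Subgroup G) [F.Normal] (h : (Nat.card F).Coprime C.index) : F ≤ C := by
  have h1 : F.relIndex (C ⊔ F) = F.relIndex C := Subgroup.relIndex_sup_right C F
  have h2 : Nat.card F * F.relIndex (C ⊔ F) = Nat.card (C ⊔ F : Subgroup G) := card_mul_relIndex le_sup_right
  have h3 : Nat.card (C ⊓ F : Subgroup G) * (C ⊓ F).relIndex C = Nat.card C := card_mul_relIndex inf_le_left
  rw [Subgroup.inf_relIndex_left] at h3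
  have h4 : Nat.card C * C.relIndex (C ⊔ F) = Nat.card (C ⊔ F : Subgroup G) := card_mul_relIndex le_sup_left
  have h5 : C.relIndex (C ⊔ F) ∣ Nat.card F := by
    have h6 : Nat.card C * C.relIndex (C ⊔ F) = Nat.card F * F.relIndex C := by rw [h4, ← h2, h1]
    rw [← h3] at h6
    have h7 : 0 < F.relIndex C := Nat.pos_of_ne_zero fun h0 => by
      rw [h0, mul_zero] at h3
      exact Nat.card_pos.ne h3
    have h8 : F.relIndex C * (Nat.card (C ⊓ F : Subgroup G) * C.relIndex (C ⊔ F)) = F.relIndex C * Nat.card F := by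
      calc F.relIndex C * (Nat.card (C ⊓ F : Subgroup G) * C.relIndex (C ⊔ F)) =
          Nat.card (C ⊓ F : Subgroup G) * F.relIndex C * C.relIndex (C ⊔ F) := by ring
        _ = Nat.card F * F.relIndex C := h6
        _ = _ := mul_comm _ _
    exact Dvd.intro_left _ (Nat.eq_of_mul_eq_mul_left h7 h8)
  have h6 : C.relIndex (C ⊔ F) ∣ C.index := Subgroup.relIndex_dvd_index_of_le le_sup_left
  have h7 : C.relIndex (C ⊔ F) = 1 := Nat.dvd_one.1 (h ▸ Nat.dvd_gcd h5 h6)
  rw [Subgroup.relIndex_eq_one] at h7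
  exact le_sup_right.trans h7

open scoped IsMulCommutative in
/-- The construction of an element with a larger class. -/
theorem exists_larger (A P : Subgroup G) [A.Normal] (hAc : IsMulCommutative A) (hAp : (Nat.card A).Coprime p)
    (hP : IsPGroup p P) (hP1 : P ≠ ⊥) (x : A) (hx : ∀ c ∈ P, c * x = x * c → c = 1) :
    ∃ y : G, Nat.card (centralizer ({y} : Set G)) * Nat.card P < Nat.card G := by
  have hAcomm : ∀ a ∈ A, ∀ b ∈ A, a * b = b * a := fun a ha b hb =>
    congrArg Subtype.val (hAc.is_comm.comm ⟨a, ha⟩ ⟨b, hb⟩)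
  -- the central element `z`
  obtain ⟨z, hzP, hzp, hz1, hzc⟩ : ∃ z : G, z ∈ P ∧ z ^ p = 1 ∧ z ≠ 1 ∧ ∀ c ∈ P, c * z = z * c := by
    have hnt : Nontrivial P := (Subgroup.nontrivial_iff_ne_bot P).2 hP1
    have h1 : Nontrivial (center P) := hP.center_nontrivial
    have h2 : p ∣ Nat.card (center P) := by
      obtain ⟨n, hn⟩ := (hP.to_subgroup (center P)).exists_card_eq
      have h3 : 1 < Nat.card (center P) := Finite.one_lt_card
      rw [hn] at h3 ⊢
      have : n ≠ 0 := by
        rintro rfl
        simp at h3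
      exact dvd_pow_self p this
    obtain ⟨z, hz⟩ := exists_prime_orderOf_dvd_card' p h2
    refine ⟨((z : P) : G), (z : P).2, ?_, ?_, ?_⟩
    · have := pow_orderOf_eq_one z
      rw [hz] at this
      exact congrArg (fun t : center P => ((t : P) : G)) this
    · intro h
      have h4 : z = 1 := Subtype.ext (Subtype.ext h)
      rw [h4, orderOf_one] at hz
      exact hF.out.one_lt.ne hz
    · intro c hc
      exact congrArg Subtype.val (mem_center_iff.1 z.2 ⟨c, hc⟩)
  let ρ : G →* MulAut A := MulAut.conjNormal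
  have hρ : ∀ (q : G) (v : A), ((ρ q v : A) : G) = q * v * q⁻¹ := fun q v => MulAut.conjNormal_apply q v
  have hρP : ∀ c ∈ P, ρ c x = x → c = 1 := by
    intro c hc h
    apply hx c hc
    have h1 := hρ c x
    rw [h] at h1
    exact (eq_mul_inv_iff_mul_eq.1 h1).symm
  set N : A →* A := nrm ρ p z with hN
  set w : A := N x with hw
  have hwz : ρ z w = w := nrm_fix ρ hzp x
  -- a root of `w` fixed by `z`
  obtain ⟨b, hbz, hbw⟩ : ∃ b : A, ρ z b = b ∧ b ^ p = w := by
    have hcop : (Nat.card (fx ρ z)).Coprime p :=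
      Nat.Coprime.coprime_dvd_left (Subgroup.card_subgroup_dvd_card _) hAp
    obtain ⟨b, hb⟩ := (powCoprime hcop).surjective ⟨w, hwz⟩
    exact ⟨b, b.2, congrArg Subtype.val hb⟩
  have hNb : N b = w := by rw [hN, nrm_of_fix ρ hbz, hbw]
  -- norm and conjugation commute
  have hNc : ∀ c ∈ P, ∀ v, N (ρ c v) = ρ c (N v) := by
    intro c hc v
    rw [hN, nrm_apply, nrm_apply, map_prod]
    refine Finset.prod_congr rfl fun k _ => ?_
    rw [← MulAut.mul_apply, ← MulAut.mul_apply, ← map_mul, ← map_mul]
    have : Commute c z := hzc c hc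
    rw [(this.pow_right k).eq]
  set Q : Subgroup G := P ⊓ centralizer {(w : G)} with hQ
  have hQlt : Nat.card Q < Nat.card N.ker := by
    have hQw : ∀ c : Q, ρ (c : G) w = w := by
      intro c
      apply Subtype.ext
      rw [hρ, mem_centralizer_singleton_iff.1 c.2.2]
      group
    have hmem : ∀ c : Q, ρ (c : G) x / x ∈ N.ker := by
      intro c
      rw [MonoidHom.mem_ker, map_div, hNc c c.2.1, ← hw, hQw c, div_self']
    have hbmem : b / x ∈ N.ker := by
      rw [MonoidHom.mem_ker, map_div, hNb, ← hw, div_self']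
    have h1 : Nat.card Q ≤ Nat.card {k : N.ker // k ≠ ⟨b / x, hbmem⟩} := by
      refine Nat.card_le_card_of_injective
        (fun c : Q => (⟨⟨ρ (c : G) x / x, hmem c⟩, ?_⟩ : {k : N.ker // k ≠ ⟨b / x, hbmem⟩})) ?_
      · intro h
        have h2 : ρ (c : G) x / x = b / x := congrArg Subtype.val h
        have h3 : ρ (c : G) x = b := div_left_injective h2
        apply hz1
        apply hρP z hzP
        have h4 : x = ρ ((c : G)⁻¹) b := by
          rw [← h3, ← MulAut.mul_apply, ← map_mul, inv_mul_cancel, map_one, MulAut.one_apply]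
        have h5 : z * (c : G)⁻¹ = (c : G)⁻¹ * z := (hzc _ (P.inv_mem c.2.1)).symm
        rw [h4, ← MulAut.mul_apply, ← map_mul, h5, map_mul, MulAut.mul_apply, hbz]
      · intro c d hcd
        have h2 : ρ (c : G) x / x = ρ (d : G) x / x :=
          congrArg (fun k : {k : N.ker // k ≠ ⟨b / x, hbmem⟩} => ((k : N.ker) : A)) hcd
        have h3 : ρ (c : G) x = ρ (d : G) x := div_left_injective h2
        have h4 : (c : G)⁻¹ * d = 1 := by
          apply hρP _ (P.mul_mem (P.inv_mem c.2.1) d.2.1)
          rw [map_mul, MulAut.mul_apply, ← h3, ← MulAut.mul_apply, ← map_mul, inv_mul_cancel, map_one,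
            MulAut.one_apply]
        exact Subtype.ext (inv_mul_eq_one.1 h4)
    refine lt_of_le_of_lt h1 ?_
    exact Finite.card_subtype_lt (x := (⟨b / x, hbmem⟩ : N.ker)) (by simp)
  have hfx : Nat.card (fx ρ z) ≤ Nat.card N.range := by
    apply PCoset.card_le_of_le
    intro v hv
    have hcop : (Nat.card (fx ρ z)).Coprime p :=
      Nat.Coprime.coprime_dvd_left (Subgroup.card_subgroup_dvd_card _) hAp
    obtain ⟨u, hu⟩ := (powCoprime hcop).surjective ⟨v, hv⟩
    refine ⟨u, ?_⟩
    have h1 : ρ z (u : A) = u := u.2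
    rw [hN, nrm_of_fix ρ h1]
    exact congrArg Subtype.val hu
  have hAcard : Nat.card N.range * Nat.card N.ker = Nat.card A := by
    rw [mul_comm, ← Subgroup.index_ker, Subgroup.card_mul_index]
  have hprod : Nat.card Q * Nat.card (fx ρ z) < Nat.card A := by
    have hpos : 0 < Nat.card (fx ρ z) := Nat.card_pos
    calc Nat.card Q * Nat.card (fx ρ z) < Nat.card N.ker * Nat.card (fx ρ z) := by gcongr
      _ ≤ Nat.card N.ker * Nat.card N.range := by gcongr
      _ = Nat.card A := by rw [mul_comm, hAcard]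
  -- the element
  set L : Subgroup G := A ⊔ P with hL
  refine ⟨z * w, ?_⟩
  set C : Subgroup G := centralizer {z * (w : G)} ⊓ L with hC
  have hzw : z * (w : G) = w * z := by
    have h1 := hρ z w
    rw [hwz] at h1
    exact (eq_mul_inv_iff_mul_eq.1 h1).symm
  obtain ⟨i, j, hi, hj⟩ := parts_pow (p := p) (k := 1) (m := Nat.card A) hzw (by rw [pow_one]; exact hzp)
    (by
      have : w ^ Nat.card A = 1 := pow_card_eq_one'
      exact congrArg Subtype.val this) (by rw [pow_one]; exact hAp.symm)
  have hCz : ∀ t ∈ C, t * z = z * t ∧ t * w = w * t := by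
    intro t ht
    have h1 : Commute t (z * w) := mem_centralizer_singleton_iff.1 ht.1
    have h2 := h1.pow_right i
    have h3 := h1.pow_right j
    rw [hi] at h2
    rw [hj] at h3
    exact ⟨h2, h3⟩
  have hCE : C ≤ Q ⊔ A := by
    intro t ht
    obtain ⟨a, ha, c, hc, rfl⟩ := (mem_sup_of_normal_left).1 ht.2
    refine mul_mem (mem_sup_right ha) (mem_sup_left ⟨hc, mem_centralizer_singleton_iff.2 ?_⟩)
    have h1 := (hCz _ ht).2
    have h2 := hAcomm a ha w w.2
    have h3 : a * (c * w) = a * (w * c) := by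
      calc a * (c * w) = a * c * w := by group
        _ = w * (a * c) := h1
        _ = w * a * c := by group
        _ = a * w * c := by rw [h2]
        _ = _ := by group
    exact mul_left_cancel h3
  have h1 := card_mul_card_le hCE (le_sup_right : A ≤ Q ⊔ A)
  have h2 := card_sup_le Q A
  have h3 : Nat.card (C ⊓ A : Subgroup G) ≤ Nat.card (fx ρ z) := by
    refine Nat.card_le_card_of_injective (fun t : (C ⊓ A : Subgroup G) => (⟨⟨t.1, t.2.2⟩, ?_⟩ : fx ρ z)) ?_
    · rw [mem_fx]
      apply Subtype.ext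
      rw [hρ]
      change z * (t : G) * z⁻¹ = t
      rw [← (hCz _ t.2.1).1]
      group
    · intro a b hab
      exact Subtype.ext (congrArg (fun t : fx ρ z => ((t : A) : G)) hab)
  have hApos : 0 < Nat.card A := Nat.card_pos
  have hClt : Nat.card C < Nat.card A := by
    refine lt_of_le_of_lt (Nat.le_of_mul_le_mul_right (h1.trans ?_) hApos) hprod
    calc Nat.card (Q ⊔ A : Subgroup G) * Nat.card (C ⊓ A : Subgroup G) ≤
        (Nat.card Q * Nat.card A) * Nat.card (fx ρ z) := Nat.mul_le_mul h2 h3
      _ = _ := by ring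
  have h4 := card_stab_le_index L (centralizer {z * (w : G)})
  have h5 := card_mul_card_le (le_sup_left : A ≤ L) (le_sup_right : P ≤ L)
  have h6 : Nat.card (A ⊓ P : Subgroup G) = 1 := by
    rw [Subgroup.card_eq_one, eq_bot_iff]
    rintro y ⟨hy1, hy2⟩
    rw [mem_bot]
    obtain ⟨m, hm⟩ := hP ⟨y, hy2⟩
    have hm' : y ^ p ^ m = 1 := congrArg Subtype.val hm
    have h8 : orderOf y ∣ p ^ m := orderOf_dvd_of_pow_eq_one hm'
    have h9 : orderOf y ∣ Nat.card A := Subgroup.orderOf_dvd_natCard A hy1
    exact orderOf_eq_one_iff.1 (Nat.dvd_one.1 ((hAp.pow_right m) ▸ Nat.dvd_gcd h9 h8))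
  rw [h6, mul_one] at h5
  have h7 : Nat.card L * L.index = Nat.card G := L.card_mul_index
  have hLpos : 0 < L.index := Nat.pos_of_ne_zero L.index_ne_zero_of_finite
  have hPpos : 0 < Nat.card P := Nat.card_pos
  calc Nat.card (centralizer ({z * (w : G)} : Set G)) * Nat.card P ≤ (L.index * Nat.card C) * Nat.card P := by
        gcongr
    _ < (L.index * Nat.card A) * Nat.card P := by gcongr
    _ = L.index * (Nat.card A * Nat.card P) := by ring
    _ ≤ L.index * Nat.card L := by gcongr
    _ = _ := by rw [← h7, mul_comm]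

theorem strict (hcrit : WMain.AllCrit.{u}) (hO : pCore p G = ⊥) (P : Sylow p G) (hP : 1 < Nat.card P) :
    ∃ y : G, Nat.card (centralizer ({y} : Set G)) * Nat.card P < Nat.card G := by
  obtain ⟨x, hx⟩ := WMain.W (p := p) hcrit _ G le_rfl hO P
  rcases hx.lt_or_eq with h | h
  · exact ⟨x, h⟩
  set C := centralizer ({x} : Set G) with hC
  have hCpos : 0 < Nat.card C := Nat.card_pos
  have hind : C.index = Nat.card P := by
    have h1 : Nat.card C * C.index = Nat.card G := C.card_mul_index
    exact Nat.eq_of_mul_eq_mul_left hCpos (h1.trans h.symm)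
  obtain ⟨k, hk⟩ := P.isPGroup'.exists_card_eq
  have hind' : C.index = p ^ k := hind.trans hk
  obtain ⟨N, hNn, hNs, hxN⟩ :=
    Cfsg.Agent.H576.Kazarin.exists_normal_solvable hF.out _ G le_rfl x k hind'
  have hFn : (fittingSubgroup G).Normal := Lib.Cores.fittingSubgroup_normal
  have hFp := WMain.coprime_fitting (p := p) hO
  have hFC : fittingSubgroup G ≤ C := by
    apply le_of_coprime_index
    rw [hind']
    exact hFp.pow_right k
  have hxF : x ∈ centralizer (fittingSubgroup G : Set G) := by
    rw [mem_centralizer_iff]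
    intro y hy
    exact mem_centralizer_singleton_iff.1 (hFC hy)
  set A := normalClosure ({x} : Set G) with hA
  have hAN : A ≤ N := normalClosure_le_normal (by simpa using hxN)
  have hcn : (centralizer (fittingSubgroup G : Set G)).Normal := inferInstance
  have hAcF : A ≤ centralizer (fittingSubgroup G : Set G) := normalClosure_le_normal (by simpa using hxF)
  have hAs : Group.IsSolvable A := SignalizersComponents.ComponentExists.isSolvable_of_le hAN hNs
  have hAF : A ≤ fittingSubgroup G :=
    SignalizersComponents.ComponentExists.le_fitting_of_normal_of_isSolvable inferInstance hAs hAcF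
  have hAc : IsMulCommutative A := by
    refine ⟨⟨fun a b => Subtype.ext ?_⟩⟩
    exact (mem_centralizer_iff.1 (hAcF b.2)) a (hAF a.2)
  have hAp : (Nat.card A).Coprime p := Nat.Coprime.coprime_dvd_left (Subgroup.card_dvd_of_le hAF) hFp
  have hPb : (P : Subgroup G) ≠ ⊥ := by
    intro h0
    have : Nat.card P = 1 := by
      change Nat.card (P : Subgroup G) = 1
      rw [h0, Subgroup.card_bot]
    omega
  have hxA : x ∈ A := subset_normalClosure (Set.mem_singleton x)
  refine exists_larger A P hAc hAp P.isPGroup' hPb ⟨x, hxA⟩ fun c hc hcx => ?_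
  -- `C` has order prime to `p`
  have h1 : ¬ p ∣ Nat.card C := by
    have h2 : (P : Subgroup G).index = Nat.card C := by
      have h3 : Nat.card P * (P : Subgroup G).index = Nat.card G := (P : Subgroup G).card_mul_index
      have hPpos : 0 < Nat.card P := Nat.card_pos
      apply Nat.eq_of_mul_eq_mul_left hPpos
      rw [h3, ← h, mul_comm]
    rw [← h2]
    exact P.not_dvd_index
  have hcC : c ∈ C := mem_centralizer_singleton_iff.2 hcx
  obtain ⟨m, hm⟩ := P.isPGroup' ⟨c, hc⟩
  have hm' : c ^ p ^ m = 1 := congrArg Subtype.val hm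
  have h8 : orderOf c ∣ p ^ m := orderOf_dvd_of_pow_eq_one hm'
  have h9 : orderOf c ∣ Nat.card C := Subgroup.orderOf_dvd_natCard C hcC
  have h10 : (p ^ m).Coprime (Nat.card C) := Nat.Coprime.pow_left m ((Nat.Prime.coprime_iff_not_dvd hF.out).2 h1)
  exact orderOf_eq_one_iff.1 (Nat.dvd_one.1 (h10 ▸ Nat.dvd_gcd h8 h9))

/-- **S4239 modulo the simple groups.** -/
theorem final (hcrit : WMain.AllCrit.{u}) (hG : ¬ IsMulCommutative G) (P : Sylow p G) :
    ∃ g : G, Nat.card (P : Subgroup G) < Nat.card (pCore p G) * (centralizer ({g} : Set G)).index := by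
  have hn : (pCore p G).Normal := Lib.Cores.pCore_normal p
  let π : G →* G ⧸ pCore p G := QuotientGroup.mk' (pCore p G)
  have hπ : Function.Surjective π := QuotientGroup.mk'_surjective _
  let P₂ : Sylow p (G ⧸ pCore p G) := P.mapSurjective hπ
  have hPc := card_eq_map_mul π (P : Subgroup G)
  have hker : (P : Subgroup G) ⊓ π.ker = pCore p G := by
    rw [QuotientGroup.ker_mk']
    exact inf_eq_right.2 (Lib.Cores.pCore_le_sylow P)
  rw [hker] at hPc
  have hP₂ : Nat.card ((P : Subgroup G).map π) = Nat.card P₂ := rfl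
  have hOpos : 0 < Nat.card (pCore p G) := Nat.card_pos
  by_cases h1 : 1 < Nat.card P₂
  · obtain ⟨y₂, hy₂⟩ := strict (p := p) hcrit (Lib.Cores.pCore_quotient_pCore p) P₂ h1
    obtain ⟨y, rfl⟩ := hπ y₂
    refine ⟨y, ?_⟩
    have h2 : Nat.card (centralizer ({π y} : Set (G ⧸ pCore p G))) * (centralizer ({π y} : Set (G ⧸ pCore p G))).index =
        Nat.card (G ⧸ pCore p G) := Subgroup.card_mul_index _
    rw [← h2] at hy₂
    have h3 : Nat.card P₂ < (centralizer ({π y} : Set (G ⧸ pCore p G))).index := lt_of_mul_lt_mul_left' hy₂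
    have h4 : (centralizer ({π y} : Set (G ⧸ pCore p G))).index ≤ (centralizer ({y} : Set G)).index := by
      rw [← Subgroup.index_comap_of_surjective _ hπ]
      refine Nat.le_of_dvd (Nat.pos_of_ne_zero (Subgroup.index_ne_zero_of_finite)) (Subgroup.index_dvd_of_le ?_)
      intro t ht
      rw [mem_comap, mem_centralizer_singleton_iff, ← map_mul, ← map_mul, mem_centralizer_singleton_iff.1 ht]
    rw [hPc, hP₂, mul_comm]
    exact Nat.mul_lt_mul_of_pos_left (h3.trans_le h4) hOpos
  · have h2 : Nat.card P₂ = 1 := by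
      have : 0 < Nat.card P₂ := Nat.card_pos
      omega
    obtain ⟨g, hg⟩ : ∃ g : G, (centralizer ({g} : Set G)).index ≠ 1 := by
      by_contra hcon
      push Not at hcon
      apply hG
      refine ⟨⟨fun a b => ?_⟩⟩
      have h3 := Subgroup.index_eq_one.1 (hcon b)
      have h4 : a ∈ centralizer ({b} : Set G) := h3 ▸ mem_top a
      exact mem_centralizer_singleton_iff.1 h4
    refine ⟨g, ?_⟩
    have h3 : (centralizer ({g} : Set G)).index ≠ 0 := Subgroup.index_ne_zero_of_finite
    rw [hPc, hP₂, h2, one_mul]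
    calc Nat.card (pCore p G) = Nat.card (pCore p G) * 1 := (mul_one _).symm
      _ < _ := Nat.mul_lt_mul_of_pos_left (by omega) hOpos

end Cfsg.Agent.H548.Strict
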