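import Mathlib
import Cfsg.Agent.H947.SqAlt
import Cfsg.Agent.H512.SylNum
import Cfsg.Agent.H363.TwoPrimes

/-!
# Sylow numbers of alternating groups (helper548, row for S3932)

* `row_alt` : for every prime `p` dividing `|A_n|`, `n ≥ 5`, some Sylow number of `A_n` is divisible by `p`;
* `row_isAlternating` : the same for a group isomorphic to an alternating group of degree at least `5`.
-/

set_option autoImplicit false

namespace Cfsg.Agent.H548.SylAlt

open Cfsg.Agent.H512.SylNum
open scoped Nat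

/-- every odd prime `p ≤ n` different from a prime `5 ≤ r ≤ n < 2r` divides the number of Sylow `r`-subgroups -/
theorem row_of {n r p : ℕ} [hp : Fact p.Prime] (hr : r.Prime) (h5 : 5 ≤ r) (hrn : r ≤ n) (hn : n < 2 * r)
    (hpr : p ≠ r) (hp2 : p ≠ 2) (hpn : p ≤ n) : Row p (alternatingGroup (Fin n)) := by
  haveI := Fact.mk hr
  refine ⟨r, ⟨hr⟩, ?_⟩
  have h := Cfsg.Agent.H947.Sq.alt_dvd h5 hrn hn
  have h2 : p ∣ n.choose r * (r - 2)! := by
    rcases lt_or_gt_of_ne hpr with h1 | h1
    · refine Dvd.dvd.mul_left ((hp.out.dvd_factorial).2 ?_) _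
      have ho := hp.out.odd_of_ne_two hp2
      have ho' := hr.odd_of_ne_two (by omega)
      rcases ho with ⟨a, ha⟩
      rcases ho' with ⟨b, hb⟩
      omega
    · refine Dvd.dvd.mul_right ?_ _
      have h3 : p ∣ n.choose r * r ! * (n - r)! := by
        rw [Nat.choose_mul_factorial_mul_factorial hrn]
        exact (hp.out.dvd_factorial).2 hpn
      rcases (hp.out.dvd_mul).1 h3 with h4 | h4
      · rcases (hp.out.dvd_mul).1 h4 with h5 | h5
        · exact h5
        · exact absurd ((hp.out.dvd_factorial).1 h5) (by omega)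
      · exact absurd ((hp.out.dvd_factorial).1 h4) (by omega)
  rcases (hp.out.dvd_mul).1 (h2.trans h) with h3 | h3
  · exact absurd ((Nat.prime_dvd_prime_iff_eq hp.out Nat.prime_two).1 h3) hp2
  · exact h3

/-- the prime `2` -/
theorem row_two {n r : ℕ} (hr : r.Prime) (h5 : 5 ≤ r) (hrn : r ≤ n) (hn : n < 2 * r)
    (h4 : 4 ∣ n.choose r * (r - 2)!) : Row 2 (alternatingGroup (Fin n)) := by
  haveI := Fact.mk hr
  refine ⟨r, ⟨hr⟩, ?_⟩
  have h := h4.trans (Cfsg.Agent.H947.Sq.alt_dvd h5 hrn hn)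
  omega

theorem card_alt (n : ℕ) (hn : 2 ≤ n) : 2 * Nat.card (alternatingGroup (Fin n)) = n ! := by
  haveI : Nontrivial (Fin n) := Fin.nontrivial_iff_two_le.2 hn
  rw [two_mul_nat_card_alternatingGroup, Nat.card_eq_fintype_card, Fintype.card_perm, Fintype.card_fin]

theorem le_of_dvd {n p : ℕ} (hn : 2 ≤ n) (hp : p.Prime) (hd : p ∣ Nat.card (alternatingGroup (Fin n))) : p ≤ n :=
  (hp.dvd_factorial).1 (by rw [← card_alt n hn]; exact hd.mul_left 2)

theorem row_two_five : Row 2 (alternatingGroup (Fin 5)) := by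
  haveI : Fact (Nat.Prime 5) := ⟨by norm_num⟩
  refine ⟨5, ⟨by norm_num⟩, ?_⟩
  have h := Cfsg.Agent.H947.Sq.alt_dvd (n := 5) (r := 5) le_rfl le_rfl (by norm_num)
  have h1 : (5 : ℕ).choose 5 * (5 - 2)! = 6 := by decide
  rw [h1] at h
  obtain ⟨P⟩ : Nonempty (Sylow 5 (alternatingGroup (Fin 5))) := inferInstance
  have hmod := card_sylow_modEq_one 5 (alternatingGroup (Fin 5))
  have hdvd : Nat.card (Sylow 5 (alternatingGroup (Fin 5))) ∣ 60 := by
    have h2 : Nat.card (alternatingGroup (Fin 5)) = 60 := by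
      have := card_alt 5 (by norm_num)
      have h3 : (5 : ℕ)! = 120 := by decide
      omega
    rw [← h2, Sylow.card_eq_index_normalizer P]
    exact Subgroup.index_dvd_card _
  generalize Nat.card (Sylow 5 (alternatingGroup (Fin 5))) = m at *
  have hm : m ≤ 60 := Nat.le_of_dvd (by norm_num) hdvd
  have h3 : m % 5 = 1 := hmod
  obtain ⟨c, hc⟩ := hdvd
  have h6 : 3 ∣ m := by omega
  obtain ⟨k, rfl⟩ := h6
  have hk : k ≤ 20 := by omega
  interval_cases k <;> omega

theorem exists_not_comm {n : ℕ} (hn : 5 ≤ n) : ∃ a b : alternatingGroup (Fin n), a * b ≠ b * a := by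
  by_contra h
  push Not at h
  have h1 := alternatingGroup.center_eq_bot (α := Fin n)
    (by rw [Nat.card_eq_fintype_card, Fintype.card_fin]; omega)
  haveI : IsSimpleGroup (alternatingGroup (Fin n)) :=
    alternatingGroup.isSimpleGroup (by rw [Nat.card_eq_fintype_card, Fintype.card_fin]; exact hn)
  obtain ⟨x, hx⟩ := exists_ne (1 : alternatingGroup (Fin n))
  apply hx
  have h2 : x ∈ Subgroup.center (alternatingGroup (Fin n)) := Subgroup.mem_center_iff.2 fun g => h g x
  rwa [h1, Subgroup.mem_bot] at h2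

/-- prime powers dividing `360` or `2 * |A₁₀| = 10!`, away from small values -/
theorem pow_cases {r k : ℕ} (hr : r.Prime) (hk : 0 < k) (h : r ^ k ∣ 2 ^ 8 * (3 ^ 4 * (5 ^ 2 * 7))) :
    r ^ k ∈ ({2, 4, 8, 16, 32, 64, 128, 256, 3, 9, 27, 81, 5, 25, 7} : Finset ℕ) := by
  have h1 : r ∣ 2 ^ 8 * (3 ^ 4 * (5 ^ 2 * 7)) := (dvd_pow_self r hk.ne').trans h
  have h2 : r = 2 ∨ r = 3 ∨ r = 5 ∨ r = 7 := by
    rcases hr.dvd_mul.1 h1 with h2 | h2
    · exact Or.inl ((Nat.prime_dvd_prime_iff_eq hr Nat.prime_two).1 (hr.dvd_of_dvd_pow h2))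
    rcases hr.dvd_mul.1 h2 with h2 | h2
    · exact Or.inr (Or.inl ((Nat.prime_dvd_prime_iff_eq hr Nat.prime_three).1 (hr.dvd_of_dvd_pow h2)))
    rcases hr.dvd_mul.1 h2 with h2 | h2
    · exact Or.inr (Or.inr (Or.inl ((Nat.prime_dvd_prime_iff_eq hr Nat.prime_five).1 (hr.dvd_of_dvd_pow h2))))
    · exact Or.inr (Or.inr (Or.inr ((Nat.prime_dvd_prime_iff_eq hr (by norm_num)).1 h2)))
  have hb : ∀ m, m ≤ k → r ^ m ∣ 2 ^ 8 * (3 ^ 4 * (5 ^ 2 * 7)) := fun m hm => (pow_dvd_pow r hm).trans h
  rcases h2 with rfl | rfl | rfl | rfl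
  · have : k < 9 := by
      by_contra hc
      exact absurd (hb 9 (by omega)) (by decide)
    interval_cases k <;> decide
  · have : k < 5 := by
      by_contra hc
      exact absurd (hb 5 (by omega)) (by decide)
    interval_cases k <;> decide
  · have : k < 3 := by
      by_contra hc
      exact absurd (hb 3 (by omega)) (by decide)
    interval_cases k <;> decide
  · have : k < 2 := by
      by_contra hc
      exact absurd (hb 2 (by omega)) (by decide)
    interval_cases k
    decide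

theorem row_alt {n : ℕ} (hn : 5 ≤ n) {p : ℕ} [hp : Fact p.Prime] (hd : p ∣ Nat.card (alternatingGroup (Fin n))) :
    Row p (alternatingGroup (Fin n)) := by
  have hpn := le_of_dvd (by omega) hp.out hd
  by_cases hp2 : p = 2
  · subst hp2
    by_cases h5 : n = 5
    · subst h5
      exact row_two_five
    by_cases h6 : n = 6
    · subst h6
      exact row_two (r := 5) (by norm_num) le_rfl (by norm_num) (by norm_num) (by decide)
    obtain ⟨r, hr, h7, hrn, hnr⟩ : ∃ r : ℕ, r.Prime ∧ 7 ≤ r ∧ r ≤ n ∧ n < 2 * r := by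
      by_cases h14 : n < 14
      · exact ⟨7, by norm_num, le_rfl, by omega, by omega⟩
      · obtain ⟨r, hr, h1, h2⟩ := Nat.exists_prime_lt_and_le_two_mul (n / 2) (by omega)
        exact ⟨r, hr, by omega, by omega, by omega⟩
    refine row_two hr (by omega) hrn hnr (Dvd.dvd.mul_left ?_ _)
    exact Nat.dvd_factorial (by norm_num) (by omega)
  -- another prime `r ≥ 5` with `n/2 < r ≤ n`
  by_cases hex : ∃ r : ℕ, r.Prime ∧ 5 ≤ r ∧ r ≤ n ∧ n < 2 * r ∧ p ≠ r
  · obtain ⟨r, hr, h5, hrn, hnr, hpr⟩ := hex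
    exact row_of hr h5 hrn hnr hpr hp2 hpn
  have key : ∀ r : ℕ, r.Prime → 5 ≤ r → r ≤ n → n < 2 * r → p = r := fun r hr h5 hrn hnr => by
    by_contra hpr
    exact hex ⟨r, hr, h5, hrn, hnr, hpr⟩
  haveI hsimple : IsSimpleGroup (alternatingGroup (Fin n)) :=
    alternatingGroup.isSimpleGroup (by rw [Nat.card_eq_fintype_card, Fintype.card_fin]; exact hn)
  have h11 : n < 11 := by
    by_contra h
    obtain ⟨r, s, hr, hs, h1, h2, h3⟩ := Cfsg.Agent.H363.TwoPrimes.exists_two_primes' n (by omega)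
    have e1 := key r hr (by omega) (by omega) h1
    have e2 := key s hs (by omega) h3 (by omega)
    omega
  have hna := exists_not_comm hn
  have hcases : (n = 5 ∨ n = 6) ∧ p = 5 ∨ n = 10 ∧ p = 7 := by
    have hn' : n = 5 ∨ n = 6 ∨ (7 ≤ n ∧ n < 10) ∨ n = 10 := by omega
    rcases hn' with h | h | h | h
    · exact Or.inl ⟨Or.inl h, key 5 (by norm_num) le_rfl (by omega) (by omega)⟩
    · exact Or.inl ⟨Or.inr h, key 5 (by norm_num) le_rfl (by omega) (by omega)⟩
    · have e1 := key 5 (by norm_num) le_rfl (by omega) (by omega)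
      have e2 := key 7 (by norm_num) (by omega) (by omega) (by omega)
      omega
    · exact Or.inr ⟨h, key 7 (by norm_num) (by omega) (by omega) (by omega)⟩
  have hcard := card_alt n (by omega)
  rcases hcases with ⟨h, h'⟩ | ⟨h, h'⟩
  · subst h'
    have h360 : Nat.card (alternatingGroup (Fin n)) ∣ 360 := by
      rcases h with h | h
      · subst h
        have h1 : (5 : ℕ)! = 120 := by decide
        exact ⟨6, by omega⟩
      · subst h
        have h1 : (6 : ℕ)! = 720 := by decide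
        exact ⟨1, by omega⟩
    refine row_of_one hna hd (r₀ := 5) (by norm_num) fun r hr hr5 _ k hk hrk => ?_
    have h1 : r ^ k ∣ 360 := hrk.trans h360
    have h2 := pow_cases hr hk (h1.trans (by norm_num))
    generalize r ^ k = m at *
    simp only [Finset.mem_insert, Finset.mem_singleton] at h2
    rcases h2 with h | h | h | h | h | h | h | h | h | h | h | h | h | h | h <;> subst h <;> revert h1 <;> decide
  · subst h
    subst h'
    refine row_of_one hna hd (r₀ := 2) (by norm_num) fun r hr hr7 hr2 k hk hrk => ?_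
    have h0 : (10 : ℕ)! = 2 ^ 8 * (3 ^ 4 * (5 ^ 2 * 7)) := by decide
    have h1 : r ^ k ∣ 2 ^ 8 * (3 ^ 4 * (5 ^ 2 * 7)) := by
      rw [← h0, ← hcard]
      exact hrk.mul_left 2
    have h2 := pow_cases hr hk h1
    have hodd : ¬ 2 ∣ r ^ k := fun h => hr2 (((Nat.prime_dvd_prime_iff_eq Nat.prime_two hr).1
      (Nat.prime_two.dvd_of_dvd_pow h)).symm)
    have h7 : r ^ k ≠ 7 := by
      intro h
      have : r ∣ 7 := by rw [← h]; exact dvd_pow_self r hk.ne'
      exact hr7 ((Nat.prime_dvd_prime_iff_eq hr (by norm_num)).1 this)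
    clear hrk h1
    generalize r ^ k = m at *
    simp only [Finset.mem_insert, Finset.mem_singleton] at h2
    omega

theorem row_isAlternating {G : Type*} [Group G] (h : Cfsg.IsAlternating G) {p : ℕ} [Fact p.Prime]
    (hd : p ∣ Nat.card G) : Row p G := by
  obtain ⟨n, hn, ⟨e⟩⟩ := h
  have hd' : p ∣ Nat.card (alternatingGroup (Fin n)) := by rwa [← Nat.card_congr e.toEquiv]
  exact (row_alt hn hd').congr e.symm

end Cfsg.Agent.H548.SylAlt
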